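import Cfsg.Agent.H900.SU4.Base
import Cfsg.Agent.Classification.Order360
import Cfsg.Agent.S0243

/-!
# No large torus of `U₃(q)` in the residual class of `GL₃(F)` (helper137, for helper987)

`resid` : a member of the residual class of `GL₃(F)` with core `L₃(2)` or `A₆` has no element whose order modulo scalars
is a multiple of `(q² - 1) / 3`, `q ≥ 7` odd.
-/

set_option autoImplicit false
set_option linter.unusedSectionVars false

namespace Cfsg.Agent.H137.EPX.Resid

open Subgroup Equiv
open scoped Pointwise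

section perm

/-- orders divisible by `8` in the symmetric groups of degree at most `10` -/
theorem order_eight {α : Type*} [Fintype α] [DecidableEq α] (hα : Fintype.card α ≤ 10) (σ : Perm α)
    (h8 : 8 ∣ orderOf σ) : orderOf σ = 8 := by
  have hsum : σ.cycleType.sum ≤ 10 := by
    rw [Perm.sum_cycleType]
    exact (Finset.card_le_univ _).trans hα
  have hle : ∀ c ∈ σ.cycleType, c ≤ 10 := fun c hc => (Multiset.single_le_sum (fun _ _ => Nat.zero_le _) c hc).trans hsum
  have h2 : ∀ c ∈ σ.cycleType, 2 ≤ c := fun c hc => Perm.two_le_of_mem_cycleType hc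
  have hmem : 8 ∈ σ.cycleType := by
    by_contra hcon
    have h1 : σ.cycleType.lcm ∣ 1260 := by
      rw [Multiset.lcm_dvd]
      intro c hc
      have h3 := hle c hc
      have h4 := h2 c hc
      have h5 : c ≠ 8 := fun e => hcon (e ▸ hc)
      interval_cases c <;> first | decide | exact absurd rfl h5
    rw [Perm.lcm_cycleType] at h1
    have := h8.trans h1
    norm_num at this
  obtain ⟨t, ht⟩ := Multiset.exists_cons_of_mem hmem
  apply Nat.dvd_antisymm _ h8
  rw [← Perm.lcm_cycleType, Multiset.lcm_dvd]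
  intro c hc
  rw [ht, Multiset.mem_cons] at hc
  rcases hc with rfl | hc
  · exact dvd_rfl
  · have h3 : c ≤ t.sum := Multiset.single_le_sum (fun _ _ => Nat.zero_le _) c hc
    rw [ht, Multiset.sum_cons] at hsum
    have h4 : 2 ≤ c := h2 c (by rw [ht]; exact Multiset.mem_cons_of_mem hc)
    have h5 : c = 2 := by omega
    rw [h5]
    norm_num

end perm

section aut

variable {X : Type*} [Group X] [Finite X] [IsSimpleGroup X] {p : ℕ} [Fact p.Prime]

/-- the automorphism group is faithful on the Sylow subgroups -/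
theorem faithful (hN : 1 < Nat.card (Sylow p X)) (a : MulAut X) (ha : ∀ P : Sylow p X, a • P = P) : a = 1 := by
  have hker : (MulAction.toPermHom X (Sylow p X)).ker = ⊥ := by
    rcases (inferInstance : (MulAction.toPermHom X (Sylow p X)).ker.Normal).eq_bot_or_eq_top with h | h
    · exact h
    · exfalso
      obtain ⟨P, Q, hPQ⟩ := Finite.one_lt_card_iff_nontrivial.1 hN
      obtain ⟨g, rfl⟩ := MulAction.exists_smul_eq X P Q
      apply hPQ
      have h1 : g ∈ (MulAction.toPermHom X (Sylow p X)).ker := by rw [h]; trivial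
      have h2 := congrArg (fun σ : Perm (Sylow p X) => σ P) (MonoidHom.mem_ker.1 h1)
      exact h2.symm
  ext x
  have h1 : x⁻¹ * a x ∈ (MulAction.toPermHom X (Sylow p X)).ker := by
    rw [MonoidHom.mem_ker]
    ext1 P
    show (x⁻¹ * a x) • P = P
    have h2 : a • (x • P) = (a x) • (a • P) := by
      show a • (MulAut.conj x • P) = MulAut.conj (a x) • (a • P)
      rw [← mul_smul, ← mul_smul]
      congr 1
      ext y
      simp [MulAut.mul_apply]
    rw [ha, ha] at h2
    rw [mul_smul, ← h2, inv_smul_smul]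
  rw [hker, mem_bot, inv_mul_eq_one] at h1
  exact h1.symm

/-- automorphisms of order divisible by `8` -/
theorem order_aut (hN : 1 < Nat.card (Sylow p X)) (hN10 : Nat.card (Sylow p X) ≤ 10) (a : MulAut X)
    (h8 : 8 ∣ orderOf a) : orderOf a = 8 := by
  classical
  have := Fintype.ofFinite (Sylow p X)
  have hinj : Function.Injective (MulAction.toPermHom (MulAut X) (Sylow p X)) := by
    rw [injective_iff_map_eq_one]
    intro b hb
    apply faithful hN
    intro P
    exact congrArg (fun σ : Perm (Sylow p X) => σ P) hb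
  rw [← orderOf_injective _ hinj] at h8 ⊢
  exact order_eight (by rwa [← Nat.card_eq_fintype_card]) _ h8

end aut

theorem card_psl32 {F : Type*} [Field F] [Fintype F] (hF : Fintype.card F = 2) :
    Nat.card (Matrix.ProjectiveSpecialLinearGroup (Fin 3) F) = 168 := by
  have h := S0243.result hF 3 (by norm_num)
  rw [Fin.prod_univ_three] at h
  norm_num at h
  omega

/-- `|Syl₇| = 8` in a simple group of order `168` -/
theorem card_sylow_seven {X : Type*} [Group X] [Finite X] [IsSimpleGroup X] (h : Nat.card X = 168) :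
    1 < Nat.card (Sylow 7 X) ∧ Nat.card (Sylow 7 X) ≤ 10 := by
  have hf : Fact (Nat.Prime 7) := ⟨by norm_num⟩
  obtain ⟨P⟩ : Nonempty (Sylow 7 X) := inferInstance
  have hP : Nat.card (P : Subgroup X) = 7 := by
    have h2 : 7 ^ 1 ∣ Nat.card (P : Subgroup X) := P.pow_dvd_card_of_pow_dvd_card (by rw [h]; norm_num)
    obtain ⟨k, hk⟩ := IsPGroup.iff_card.1 P.isPGroup'
    have h3 : Nat.card (P : Subgroup X) ∣ 168 := by rw [← h]; exact Subgroup.card_subgroup_dvd_card _
    rw [hk] at h2 h3 ⊢
    have h4 : 1 ≤ k := (Nat.pow_dvd_pow_iff_le_right (by norm_num)).1 h2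
    have h5 : k ≤ 1 := by
      by_contra hcon
      have h6 : 7 ^ 2 ∣ 168 := (pow_dvd_pow 7 (by omega)).trans h3
      norm_num at h6
    rw [(by omega : k = 1), pow_one]
  have h1 : Nat.card (Sylow 7 X) ≡ 1 [MOD 7] := card_sylow_modEq_one 7 X
  have h2 : Nat.card (Sylow 7 X) ∣ 24 := by
    have h2 := P.card_dvd_index
    have h3 := (P : Subgroup X).card_mul_index
    rw [hP, h] at h3
    have : (P : Subgroup X).index = 24 := by omega
    rwa [this] at h2
  have h0 : Nat.card (Sylow 7 X) ≠ 1 := by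
    intro e
    have h3 := P.card_eq_index_normalizer
    rw [e] at h3
    have h4 : normalizer ((P : Subgroup X) : Set X) = ⊤ := Subgroup.index_eq_one.1 h3.symm
    have h5 : (P : Subgroup X).Normal := Subgroup.normalizer_eq_top_iff.1 h4
    rcases h5.eq_bot_or_eq_top with h6 | h6
    · rw [h6, Subgroup.card_bot] at hP
      omega
    · rw [h6, Subgroup.card_top] at hP
      omega
  have h3 := Nat.le_of_dvd (by norm_num) h2
  have h4 : Nat.card (Sylow 7 X) % 7 = 1 := h1
  rcases (by omega : Nat.card (Sylow 7 X) = 8 ∨ Nat.card (Sylow 7 X) = 15 ∨ Nat.card (Sylow 7 X) = 22) with h5 | h5 | h5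
  · omega
  · rw [h5] at h2
    norm_num at h2
  · rw [h5] at h2
    norm_num at h2

end Cfsg.Agent.H137.EPX.Resid

namespace Cfsg.Agent.H137.EPX

open Cfsg

theorem resid {F : Type*} [Field F] [Fintype F] {q : ℕ} (hq : 7 ≤ q) (hodd : Odd q)
    {H P : Subgroup (Matrix.GeneralLinearGroup (Fin 3) F)} (hP : Cfsg.Geo.IsResidualCore H P)
    {g : Matrix.GeneralLinearGroup (Fin 3) F} (hg : g ∈ H)
    (hord : ∀ k : ℕ, g ^ k ∈ Cfsg.Geo.scalars (Fin 3) F → q ^ 2 - 1 ∣ 3 * k)
    (hiso : Nonempty ((P ⧸ (Cfsg.Geo.scalars (Fin 3) F).subgroupOf P) ≃* Matrix.ProjectiveSpecialLinearGroup (Fin 3) (ZMod 2)) ∨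
      Nonempty ((P ⧸ (Cfsg.Geo.scalars (Fin 3) F).subgroupOf P) ≃* alternatingGroup (Fin 6))) : False := by
  classical
  have hfin : Finite (Matrix.GeneralLinearGroup (Fin 3) F) := inferInstance
  have hsim := hP.simple
  obtain ⟨φ, hφ⟩ := H900.SU4.exists_core_inj hP
  let gb : H ⧸ (Geo.scalars (Fin 3) F).subgroupOf H := QuotientGroup.mk' _ ⟨g, hg⟩
  have h1 : g ^ orderOf (φ gb) ∈ Geo.scalars (Fin 3) F := by
    have h2 : gb ^ orderOf (φ gb) = 1 := by
      apply hφ
      rw [map_pow, pow_orderOf_eq_one, map_one]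
    have h3 : (QuotientGroup.mk' ((Geo.scalars (Fin 3) F).subgroupOf H)) ((⟨g, hg⟩ : H) ^ orderOf (φ gb)) = 1 := by
      rw [map_pow]
      exact h2
    have h4 := (QuotientGroup.eq_one_iff _).1 h3
    exact h4
  have h2 := hord _ h1
  have h8 : 8 ∣ q ^ 2 - 1 := by
    obtain ⟨k, rfl⟩ := hodd
    have e : (2 * k + 1) ^ 2 - 1 = 4 * (k * (k + 1)) := by
      have : (2 * k + 1) ^ 2 = 4 * (k * (k + 1)) + 1 := by ring
      omega
    rw [e]
    obtain ⟨l, hl⟩ := Nat.even_mul_succ_self k
    exact ⟨l, by rw [hl]; ring⟩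
  have h9 : 8 ∣ orderOf (φ gb) := by
    have := h8.trans h2
    omega
  have h10 : orderOf (φ gb) = 8 := by
    rcases hiso with ⟨⟨e⟩⟩ | ⟨⟨e⟩⟩
    · have hc : Nat.card (P ⧸ (Geo.scalars (Fin 3) F).subgroupOf P) = 168 := by
        rw [Nat.card_congr e.toEquiv]
        exact Resid.card_psl32 (ZMod.card 2)
      obtain ⟨h3, h4⟩ := Resid.card_sylow_seven hc
      have hf : Fact (Nat.Prime 7) := ⟨by norm_num⟩
      exact Resid.order_aut h3 h4 _ h9
    · have hc : Nat.card (P ⧸ (Geo.scalars (Fin 3) F).subgroupOf P) = 360 := by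
        rw [Nat.card_congr e.toEquiv, Nat.card_eq_fintype_card]
        have := two_mul_card_alternatingGroup (α := Fin 6)
        rw [Fintype.card_perm, Fintype.card_fin] at this
        have h6 : Nat.factorial 6 = 720 := by rfl
        omega
      have h3 := Classification.Order360.card_sylow_three hc
      have hf : Fact (Nat.Prime 3) := ⟨Nat.prime_three⟩
      exact Resid.order_aut (p := 3) (by rw [h3]; norm_num) (by rw [h3]) _ h9
  rw [h10] at h2
  have h11 := Nat.le_of_dvd (by norm_num) h2
  have h12 : 7 ^ 2 ≤ q ^ 2 := Nat.pow_le_pow_left hq 2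
  omega

end Cfsg.Agent.H137.EPX
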